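import Cfsg.Agent.H319.One.Base
import Mathlib.GroupTheory.Index

/-!
# S4880: `Loc p e G` gives an automizer of order divisible by `e` (helper741)
-/

set_option autoImplicit false

namespace Cfsg.Agent.H741.One

open Subgroup Cfsg.Agent.H319.One

variable {G : Type*} [Group G]

theorem Loc.of_subgroup {p e : ℕ} {T : Subgroup G} (h : Loc p e ↥T) : Loc p e G := by
  obtain ⟨x, y, c, k, hx, hy, hxy, hn, hc, hk, he⟩ := h
  refine ⟨x, y, c, k, by rw [Subgroup.orderOf_coe, hx], by rw [Subgroup.orderOf_coe, hy], congrArg Subtype.val hxy,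
    ?_, congrArg Subtype.val hc, congrArg Subtype.val hk, he⟩
  rintro ⟨m, hm⟩
  exact hn ⟨m, Subtype.ext (by simpa using hm)⟩

theorem conj_pow_iter {c y : G} {k : ℕ} (h : c * y * c⁻¹ = y ^ k) (m : ℕ) : c ^ m * y * (c ^ m)⁻¹ = y ^ k ^ m := by
  induction m with
  | zero => simp
  | succ m ih =>
    rw [pow_succ' c, pow_succ k, pow_mul, ← ih]
    calc c * c ^ m * y * (c * c ^ m)⁻¹ = c * (c ^ m * y * (c ^ m)⁻¹) * c⁻¹ := by group
      _ = c * y ^ k ^ m * c⁻¹ := by rw [ih]
      _ = (c * y * c⁻¹) ^ k ^ m := by rw [conj_pow]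
      _ = (y ^ k) ^ k ^ m := by rw [h]
      _ = (y ^ k ^ m) ^ k := by rw [← pow_mul, ← pow_mul, mul_comm]
      _ = (c ^ m * y * (c ^ m)⁻¹) ^ k := by rw [ih]

/-- A Sylow subgroup `P` of order `p²` and `x ∈ P` with `|N(P) ∩ C(x) : C(P)|` divisible by `e`. -/
theorem exists_of_loc [Finite G] {p e : ℕ} [hp : Fact p.Prime] (hcard : ∀ P : Sylow p G, Nat.card P = p ^ 2)
    (h : Loc p e G) : ∃ (P : Sylow p G) (x : G), x ∈ (P : Subgroup G) ∧ x ≠ 1 ∧
      e ∣ (centralizer ((P : Subgroup G) : Set G)).relIndex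
        (normalizer ((P : Subgroup G) : Set G) ⊓ centralizer ({x} : Set G)) := by
  obtain ⟨x, y, c, k, hx, hy, hxy, hn, hc, hk, he⟩ := h
  have hp' := hp.out
  set Q : Subgroup G := zpowers x ⊔ zpowers y with hQ
  have hxQ : x ∈ Q := le_sup_left (a := zpowers x) (mem_zpowers x)
  have hyQ : y ∈ Q := le_sup_right (a := zpowers x) (mem_zpowers y)
  have hQc : ∀ g : G, g * x = x * g → g * y = y * g → g ∈ centralizer (Q : Set G) := by
    intro g h1 h2
    have h3 : Q ≤ centralizer {g} := by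
      rw [hQ, sup_le_iff, zpowers_le, zpowers_le]
      exact ⟨mem_centralizer_singleton_iff.2 h1.symm, mem_centralizer_singleton_iff.2 h2.symm⟩
    exact mem_centralizer_iff.2 fun q hq => mem_centralizer_singleton_iff.1 (h3 hq)
  have hQp : IsPGroup p ↥Q := by
    have h1 : IsPGroup p ↥(zpowers x) := IsPGroup.of_card (n := 1) (by rw [Nat.card_zpowers, hx, pow_one])
    have h2 : IsPGroup p ↥(zpowers y) := IsPGroup.of_card (n := 1) (by rw [Nat.card_zpowers, hy, pow_one])
    refine IsPGroup.to_sup_of_normal_left' h1 h2 ?_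
    rw [zpowers_le]
    refine centralizer_le_normalizer _ (mem_centralizer_iff.2 ?_)
    rintro _ ⟨m, rfl⟩
    exact ((Commute.zpow_left (show Commute x y from hxy) m)).eq
  obtain ⟨P, hP⟩ := hQp.exists_le_sylow
  have hPQ : (P : Subgroup G) = Q := by
    symm
    apply Subgroup.eq_of_le_of_card_ge hP
    have h1 : Nat.card ↥(P : Subgroup G) = p ^ 2 := hcard P
    rw [h1]
    obtain ⟨n, hn'⟩ := IsPGroup.iff_card.1 hQp
    rw [hn']
    apply Nat.pow_le_pow_right hp'.pos
    by_contra h2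
    apply hn
    have h3 : Nat.card ↥Q ≤ Nat.card ↥(zpowers x) := by
      rw [hn', Nat.card_zpowers, hx]
      calc p ^ n ≤ p ^ 1 := Nat.pow_le_pow_right hp'.pos (by omega)
        _ = p := pow_one p
    have h4 := Subgroup.eq_of_le_of_card_ge (le_sup_left : zpowers x ≤ zpowers x ⊔ zpowers y) h3
    rw [h4]
    exact hyQ
  have hcN : c ∈ normalizer ((P : Subgroup G) : Set G) := by
    rw [hPQ]
    have h1 : Q.map (MulAut.conj c).toMonoidHom ≤ Q := by
      rw [hQ, Subgroup.map_sup, sup_le_iff, MonoidHom.map_zpowers, MonoidHom.map_zpowers, zpowers_le, zpowers_le]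
      constructor
      · show c * x * c⁻¹ ∈ Q
        rw [hc, mul_inv_cancel_right]
        exact hxQ
      · show c * y * c⁻¹ ∈ Q
        rw [hk]
        exact pow_mem hyQ k
    have h2 : Q.map (MulAut.conj c).toMonoidHom = Q := by
      apply Subgroup.eq_of_le_of_card_ge h1
      rw [Subgroup.card_map_of_injective (MulAut.conj c).injective]
    rw [mem_normalizer_iff]
    intro g
    constructor
    · intro hg
      exact h1 ⟨g, hg, rfl⟩
    · intro hg
      rw [← h2] at hg
      obtain ⟨q, hq, hq2⟩ := hg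
      have hq3 : c * q * c⁻¹ = c * g * c⁻¹ := hq2
      have hq4 : q = g := by
        have := mul_right_cancel hq3
        exact mul_left_cancel this
      rw [← hq4]
      exact hq
  refine ⟨P, x, hP hxQ, ?_, ?_⟩
  · rintro rfl
    rw [orderOf_one] at hx
    exact hp'.ne_one hx.symm
  set D := normalizer ((P : Subgroup G) : Set G) ⊓ centralizer ({x} : Set G) with hD
  have hcD : c ∈ D := ⟨hcN, mem_centralizer_singleton_iff.2 hc⟩
  have hnorm : ((centralizer ((P : Subgroup G) : Set G)).subgroupOf D).Normal := by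
    constructor
    rintro ⟨n, hnD⟩ hn' ⟨g, hgD⟩
    rw [mem_subgroupOf] at hn' ⊢
    have h1 := mem_centralizer_iff.1 hn'
    rw [mem_centralizer_iff]
    intro q hq
    have h2 : g⁻¹ * q * g ∈ (P : Subgroup G) := by
      have h3 := (mem_normalizer_iff.1 (inv_mem hgD.1)) q
      rw [inv_inv] at h3
      exact h3.1 hq
    have h4 : (g⁻¹ * q * g) * n = n * (g⁻¹ * q * g) := h1 _ h2
    show q * (g * n * g⁻¹) = g * n * g⁻¹ * q
    calc q * (g * n * g⁻¹) = g * ((g⁻¹ * q * g) * n) * g⁻¹ := by group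
      _ = g * (n * (g⁻¹ * q * g)) * g⁻¹ := by rw [h4]
      _ = g * n * g⁻¹ * q := by group
  rw [relIndex, index_eq_card]
  refine dvd_trans ?_ (orderOf_dvd_natCard (QuotientGroup.mk (⟨c, hcD⟩ : D) :
    D ⧸ (centralizer ((P : Subgroup G) : Set G)).subgroupOf D))
  rw [← he]
  apply orderOf_dvd_of_pow_eq_one
  obtain ⟨m, hm⟩ : ∃ m, m = orderOf (QuotientGroup.mk (⟨c, hcD⟩ : D) :
    D ⧸ (centralizer ((P : Subgroup G) : Set G)).subgroupOf D) := ⟨_, rfl⟩
  rw [← hm]
  have h1 : (QuotientGroup.mk (⟨c, hcD⟩ : D) :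
      D ⧸ (centralizer ((P : Subgroup G) : Set G)).subgroupOf D) ^ m = 1 := by
    rw [hm]
    exact pow_orderOf_eq_one _
  rw [← QuotientGroup.mk_pow, QuotientGroup.eq_one_iff, mem_subgroupOf] at h1
  have h2 : c ^ m * y * (c ^ m)⁻¹ = y := by
    have h3 : y * c ^ m = c ^ m * y := mem_centralizer_iff.1 h1 y (hP hyQ)
    rw [← h3, mul_inv_cancel_right]
  rw [conj_pow_iter hk m] at h2
  have h3 : y ^ (k ^ m) = y ^ 1 := by rw [h2, pow_one]
  rw [pow_eq_pow_iff_modEq, hy] at h3
  have h4 := (ZMod.natCast_eq_natCast_iff _ _ _).2 h3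
  push_cast at h4
  exact h4

end Cfsg.Agent.H741.One
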